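import Mathlib
import Cfsg.Agent.Lib.Helper73.AB.Defs

/-!
# Project AB (S2506), package FINAL (helper72)

From EXIST, BOUND, CONJ and PAR: any two abelian subgroups of largest order of `Alt(Fin n)`
are conjugate in `Alt(Fin n)`.
-/

set_option autoImplicit false

namespace Cfsg.Agent.Lib.Helper72.AB

open Equiv
open scoped Pointwise
open Cfsg.Agent.Lib.Helper73.AB

/-- Conjugation by an element of a subgroup `K`, pushed to the ambient group. -/
theorem map_subtype_conj_smul {G : Type*} [Group G] (K : Subgroup G) (g : K) (A : Subgroup K) :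
    (MulAut.conj g • A).map K.subtype
      = (A.map K.subtype).map (MulAut.conj (g : G)).toMonoidHom := by
  ext x
  constructor
  · rintro ⟨y, hy, rfl⟩
    have hy' : y ∈ MulAut.conj g • A := hy
    rw [Subgroup.mem_pointwise_smul_iff_inv_smul_mem] at hy'
    refine ⟨K.subtype ((MulAut.conj g)⁻¹ • y), Subgroup.mem_map_of_mem _ hy', ?_⟩
    simp [MulAut.smul_def, mul_assoc]
  · rintro ⟨z, ⟨a, ha, rfl⟩, rfl⟩
    refine ⟨MulAut.conj g • a, Subgroup.smul_mem_pointwise_smul _ _ _ ha, ?_⟩
    simp [MulAut.smul_def]

/-- A largest abelian subgroup of the group `Alt(Fin n)`, seen in `Perm (Fin n)`. -/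
theorem isMaxAb_map {n : ℕ} (A : Subgroup (alternatingGroup (Fin n))) (hA : IsMulCommutative A)
    (hAmax : ∀ C : Subgroup (alternatingGroup (Fin n)), IsMulCommutative C →
      Nat.card C ≤ Nat.card A) :
    IsMaxAb (A.map (alternatingGroup (Fin n)).subtype) := by
  refine ⟨Subgroup.map_subtype_le A, ?_, ?_⟩
  · rintro x ⟨a, ha, rfl⟩ y ⟨b, hb, rfl⟩
    have h := hA.1.1 ⟨a, ha⟩ ⟨b, hb⟩
    have h2 : a * b = b * a := congrArg Subtype.val h
    exact congrArg Subtype.val h2
  · intro C hC hCab
    have hcomm : IsMulCommutative (C.subgroupOf (alternatingGroup (Fin n))) :=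
      ⟨⟨fun x y => by
        apply Subtype.ext
        apply Subtype.ext
        exact hCab x.1.1 x.2 y.1.1 y.2⟩⟩
    have h1 := hAmax _ hcomm
    have h2 : Nat.card (C.subgroupOf (alternatingGroup (Fin n))) = Nat.card C :=
      Nat.card_congr (Subgroup.subgroupOfEquivOfLe hC).toEquiv
    have h3 : Nat.card (A.map (alternatingGroup (Fin n)).subtype) = Nat.card A :=
      Subgroup.card_map_of_injective (Subgroup.subtype_injective _)
    omega

/-- Package FINAL. -/
theorem s2506_of (hE : LemAbExist) (hB : LemAbBound) (hC : LemAbConj) (hP : LemAbPar) :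
    S2506Stmt := by
  intro n A B hA hB' hAmax hBmax
  have hA' := isMaxAb_map A hA hAmax
  have hB'' := isMaxAb_map B hB' hBmax
  have hinj : Function.Injective (alternatingGroup (Fin n)).subtype :=
    Subgroup.subtype_injective _
  have hcardmap : ∀ X : Subgroup (alternatingGroup (Fin n)),
      Nat.card (X.map (alternatingGroup (Fin n)).subtype) = Nat.card X :=
    fun X => Subgroup.card_map_of_injective hinj
  -- an even conjugating permutation suffices
  have hfin : ∀ σ : Perm (Fin n), Perm.sign σ = 1 →
      B.map (alternatingGroup (Fin n)).subtype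
        = (A.map (alternatingGroup (Fin n)).subtype).map (MulAut.conj σ).toMonoidHom →
      ∃ g : alternatingGroup (Fin n), B = MulAut.conj g • A := by
    intro σ hσ h
    refine ⟨⟨σ, Perm.mem_alternatingGroup.mpr hσ⟩, ?_⟩
    apply Subgroup.map_injective hinj
    rw [map_subtype_conj_smul]
    exact h
  obtain ⟨σ, hσ⟩ := hC (Fin n) _ _ hA' hB''
  rcases Int.units_eq_one_or (Perm.sign σ) with hs | hs
  · exact hfin σ hs hσ
  · by_cases hn : 3 ≤ n ∧ n ≠ 5
    · obtain ⟨τ, hτ, hτA⟩ := hP (Fin n) _ hA' (by rw [Fintype.card_fin]; exact hn.1)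
        (by rw [Fintype.card_fin]; exact hn.2)
      refine hfin (σ * τ) (by rw [map_mul, hs, hτ]; simp) ?_
      have e : (MulAut.conj (σ * τ)).toMonoidHom
          = (MulAut.conj σ).toMonoidHom.comp (MulAut.conj τ).toMonoidHom :=
        MonoidHom.ext fun x => by simp [MulAut.conj_apply, mul_assoc]
      rw [e, ← Subgroup.map_map, hτA]
      exact hσ
    · have hn' : n ≤ 2 ∨ n = 5 := by omega
      rcases hn' with hn2 | hn5
      · have hfm : fmax (Fintype.card (Fin n)) = 1 := by
          rw [Fintype.card_fin]
          interval_cases n <;> rfl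
        have hcA : Nat.card A ≤ 1 := by
          have h1 := hB (Fin n) _ hA'.1 hA'.2.1
          rw [hfm, hcardmap] at h1
          exact h1
        have hcB : Nat.card B ≤ 1 := by
          have h1 := hB (Fin n) _ hB''.1 hB''.2.1
          rw [hfm, hcardmap] at h1
          exact h1
        have hAbot : A = ⊥ := A.eq_bot_of_card_le hcA
        have hBbot : B = ⊥ := B.eq_bot_of_card_le hcB
        refine ⟨1, ?_⟩
        rw [hAbot, hBbot, map_one, one_smul]
      · subst hn5
        have : Fact (Nat.Prime 5) := ⟨by norm_num⟩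
        obtain ⟨C, hCle, hCab, hCcard⟩ := hE (Fin 5)
        have hf5 : fmax (Fintype.card (Fin 5)) = 5 := by
          rw [Fintype.card_fin]
          rfl
        have hcard5 : ∀ X : Subgroup (alternatingGroup (Fin 5)),
            IsMaxAb (X.map (alternatingGroup (Fin 5)).subtype) → Nat.card X = 5 := by
          intro X hX
          have h1 := hX.2.2 C hCle hCab
          have h2 := hB (Fin 5) _ hX.1 hX.2.1
          rw [hCcard, hf5, hcardmap] at h1
          rw [hf5, hcardmap] at h2
          omega
        have hKcard : Nat.card (alternatingGroup (Fin 5)) = 60 := by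
          have h := two_mul_nat_card_alternatingGroup (α := Fin 5)
          rw [Nat.card_perm, Nat.card_eq_fintype_card (α := Fin 5), Fintype.card_fin] at h
          have h5 : Nat.factorial 5 = 120 := rfl
          omega
        have hsyl : ∀ X : Subgroup (alternatingGroup (Fin 5)), Nat.card X = 5 →
            ∃ S : Sylow 5 (alternatingGroup (Fin 5)),
              (S : Subgroup (alternatingGroup (Fin 5))) = X := by
          intro X hX
          have hp : IsPGroup 5 X := IsPGroup.of_card (n := 1) (by rw [hX, pow_one])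
          have hidx : ¬ 5 ∣ X.index := by
            have h := X.card_mul_index
            rw [hX, hKcard] at h
            omega
          exact ⟨hp.toSylow hidx, IsPGroup.toSylow_coe hp hidx⟩
        obtain ⟨SA, hSA⟩ := hsyl A (hcard5 A hA')
        obtain ⟨SB, hSB⟩ := hsyl B (hcard5 B hB'')
        obtain ⟨g, hg⟩ := MulAction.exists_smul_eq (alternatingGroup (Fin 5)) SA SB
        refine ⟨g, ?_⟩
        rw [← hSA, ← hSB, ← hg]
        rfl

end Cfsg.Agent.Lib.Helper72.AB
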